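import Cfsg.Agent.Eta.Core
import Cfsg.Agent.Block.PrinReg
import Cfsg.Agent.Block.AlgBasic

/-! If the principal `p`-block meets the `q'`-degree part of the principal `q`-block trivially,
every `p`-element centralizes a Sylow `q`-subgroup. -/

set_option autoImplicit false
open scoped ComplexConjugate
open Cfsg Subgroup

namespace Cfsg.Agent.Eta
open Cfsg.Agent.Char Cfsg.Agent.Block

variable {G : Type*} [Group G] [Fintype G] {M M' : Ideal AlgInt} {p q : ℕ}

open Classical in
/-- The `q`-regular elements centralizing `Q`. -/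
noncomputable def regC (q : ℕ) (Q : Subgroup G) : Finset G :=
  Finset.univ.filter fun s => ¬ q ∣ orderOf s ∧ s ∈ centralizer (Q : Set G)

theorem red_ev [Fact q.Prime] (hM : IsPModular q M) {Q : Subgroup G} (hQ : IsPGroup q Q)
    (χ : IrrCharacter G) :
    red M (ev χ.1 (regElt q fun _ => 1)) = red M (∑ s ∈ regC q Q, χ.1 s) := by
  classical
  have := charP_resField hM
  have e : ev χ.1 (regElt q fun _ => 1) =
      ∑ s ∈ Finset.univ.filter (fun s : G => ¬ q ∣ orderOf s), χ.1 s := by
    rw [ev_regElt, Finset.sum_filter]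
    refine Finset.sum_congr rfl fun x _ => ?_
    split_ifs <;> simp
  rw [e, red_sum fun s _ => val_char χ s, red_sum fun s _ => val_char χ s,
    Alg.sum_eq_sum_fixed (p := q) (fun v => by simp) hQ (fun a y => (a : G) * y * (a : G)⁻¹)
      (fun y => by simp) (fun a b y => by simp [mul_assoc]) _
      (fun a y hy => by simpa [orderOf_conj_eq] using hy) _
      (fun a y _ => by rw [χ.2.isClassFunction y a])]
  refine Finset.sum_congr ?_ fun _ _ => rfl
  ext s
  simp only [regC, Finset.mem_filter, Finset.mem_univ, true_and, mem_centralizer_iff,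
    mul_inv_eq_iff_eq_mul, Subtype.forall, SetLike.mem_coe]

theorem val_regC [Fact q.Prime] (hM : IsPModular q M) {Q : Subgroup G} (hQ : IsPGroup q Q)
    (χ : IrrCharacter G) : val M (∑ s ∈ regC q Q, χ.1 s) < 1 ↔
      ¬ (χ ∈ principalBlock M G ∧ ¬ q ∣ charDegree χ.1) := by
  classical
  have h1 : val M (ev χ.1 (regElt q fun _ => 1)) ≤ 1 := by
    rw [ev_regElt]
    refine val_sum_le_one fun x _ => ?_
    split_ifs
    · simp
    · simpa using val_char χ x
  rw [mem_principal_and_not_dvd_iff hM, ← red_eq_zero_iff (val_sum_le_one fun s _ => val_char χ s),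
    ← red_ev hM hQ, ← red_ne_zero_iff h1, not_not]

theorem cent [Fact p.Prime] [Fact q.Prime] (hM : IsPModular p M) (hM' : IsPModular q M')
    (h : ∀ χ ∈ principalBlock M G, χ ∈ principalBlock M' G → ¬ q ∣ charDegree χ.1 → χ = irrOne G)
    {Q : Subgroup G} (hQ : IsPGroup q Q) (u : G) :
    ∃ v ∈ centralizer (Q : Set G), IsConj (pPart p u) v := by
  classical
  by_contra hc
  push Not at hc
  have h1 : ∀ s ∈ regC q Q, (∑ χ : IrrCharacter G,
      if χ ∈ principalBlock M G then χ.1 s * conj (χ.1 u) else 0) = 0 := fun s hs => by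
    rw [← finsum_mem_irr_eq_sum_ite]
    exact sum_mul_conj_eq_zero_of_val hM (val_blockCoeff_principal_le_one hM) fun e =>
      hc _ (pPart_mem (Finset.mem_filter.1 hs).2.2) e.symm
  have h2 := Finset.sum_eq_zero h1
  rw [Finset.sum_comm, ← Finset.add_sum_erase _ _ (Finset.mem_univ (irrOne G))] at h2
  have h3 : val M' (∑ χ ∈ Finset.univ.erase (irrOne G), ∑ s ∈ regC q Q,
      if χ ∈ principalBlock M G then χ.1 s * conj (χ.1 u) else 0) < 1 := by
    refine val_sum_lt_one fun χ hχ => ?_
    by_cases hb : χ ∈ principalBlock M G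
    · simp only [if_pos hb, ← Finset.sum_mul]
      refine val_mul_lt_one_left ((val_regC hM' hQ χ).2 fun e =>
        (Finset.mem_erase.1 hχ).1 (h χ hb e.1 e.2)) ?_
      rw [← χ.2.isGen.map_inv]
      exact val_char χ _
    · simp [hb]
  rw [← neg_eq_iff_add_eq_zero.2 h2, Valuation.map_neg] at h3
  simp only [if_pos (irrOne_mem_principal hM), irrOne_apply, map_one, mul_one] at h3
  exact (val_regC hM' hQ (irrOne G)).1 h3 (mem_H0.1 (one_mem_H0 hM'))

end Cfsg.Agent.Eta
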